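import Cfsg.Agent.H339.MaxTwo
import Cfsg.Agent.H940.MCFinal
import Cfsg.Agent.S0252
import Cfsg.Agent.S0253
import Cfsg.Agent.S0255

/-!
# S5907 from its rows (helper339)
-/

set_option autoImplicit false
set_option linter.unusedSectionVars false

namespace Cfsg.Agent.H339.MaxAsm

open Subgroup Cfsg Cfsg.Agent.H339.MaxCl
open Cfsg.Agent.H940.MaxCls (Cls Rows)

universe u v

section bridge

variable {G : Type u} [Group G]

theorem atLeast_of_sep [Finite G] {n : ℕ} (h : H940.MaxCls.Sep n G) : AtLeast n G := by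
  obtain ⟨A, hA, hs⟩ := h
  choose M hM hAM using fun i => exists_coatom (hA i)
  refine ⟨M, fun i => ⟨hM i, trivial⟩, ?_⟩
  have key : ∀ i j, i < j → ¬ Cj (M i) (M j) := by
    rintro i j hij hc
    obtain ⟨g, hg⟩ := hc.symm
    apply (hM i).1
    refine hs i j hij g (M i) (hAM i) fun x hx => ?_
    rw [← hg, mem_map_conj]
    have e : g⁻¹ * (g * x * g⁻¹) * g = x := by group
    rw [e]
    exact hAM j hx
  intro i j hc
  rcases lt_trichotomy i j with h | h | h
  · exact absurd hc (key i j h)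
  · exact h
  · exact absurd hc.symm (key j i h)

theorem atLeast_of_cls {n : ℕ} (h : Cls n G) : AtLeast n G := by
  obtain ⟨M, hM, hc, -⟩ := h
  exact ⟨M, fun i => ⟨hM i, trivial⟩, hc⟩

theorem le_of_cls {n m : ℕ} (h : AtLeast n G) (h' : Cls m G) : n ≤ m := by
  obtain ⟨M, -, -, hcov⟩ := h'
  exact NCl.le_of_cov h M fun K hK _ => hcov K hK

theorem cls_of_atLeast {n : ℕ} (h : AtLeast n G) (h' : ¬ AtLeast (n + 1) G) : Cls n G := by
  obtain ⟨M, hM, hc⟩ := h
  refine ⟨M, fun i => (hM i).1, hc, fun K hK => ?_⟩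
  by_contra hcon
  push Not at hcon
  exact h' (NCl.snoc hM hc hK trivial fun i hi => by
    obtain ⟨g, hg⟩ := hi
    exact hcon i g hg)

theorem cls_iff {n : ℕ} : Cls n G ↔ AtLeast n G ∧ ¬ AtLeast (n + 1) G :=
  ⟨fun h => ⟨atLeast_of_cls h, fun h' => absurd (le_of_cls h' h) (by omega)⟩, fun h => cls_of_atLeast h.1 h.2⟩

theorem atLeast_frattini [Finite G] {n : ℕ} : AtLeast n G ↔ AtLeast n (G ⧸ frattini G) := by
  have hs := QuotientGroup.mk'_surjective (frattini G)
  constructor
  · intro h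
    refine atLeast_quotient (QuotientGroup.mk' (frattini G)) hs (h.mono fun M hM _ => ?_)
    rw [QuotientGroup.ker_mk']
    exact frattini_le_coatom hM
  · exact fun h => h.of_surjective _ hs

theorem cls_frattini [Finite G] {n : ℕ} : Cls n G ↔ Cls n (G ⧸ frattini G) := by
  rw [cls_iff, cls_iff, atLeast_frattini, ← atLeast_frattini (n := n + 1)]

end bridge

/-- the list of S5907 -/
def L3 (K : Type u) [Group K] : Prop :=
  (∃ (F : Type) (_ : Field F) (_ : Fintype F), Fintype.card F = 7 ∧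
      Nonempty (K ≃* Matrix.ProjectiveSpecialLinearGroup (Fin 2) F)) ∨
    (∃ (F : Type) (_ : Field F) (_ : Fintype F) (r : ℕ), r.Prime ∧ Fintype.card F = 2 ^ r ∧
       Nonempty (K ≃* Matrix.ProjectiveSpecialLinearGroup (Fin 2) F))

theorem L3.congr {K : Type u} {K' : Type v} [Group K] [Group K'] (h : L3 K) (e : K ≃* K') : L3 K' := by
  rcases h with ⟨F, i1, i2, h1, ⟨e1⟩⟩ | ⟨F, i1, i2, r, h1, h2, ⟨e1⟩⟩
  · exact Or.inl ⟨F, i1, i2, h1, ⟨e.symm.trans e1⟩⟩
  · exact Or.inr ⟨F, i1, i2, r, h1, h2, ⟨e.symm.trans e1⟩⟩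

theorem cls_of_L3 (R : Rows) {K : Type u} [Group K] (h : L3 K) : Cls 3 K := by
  rcases h with ⟨F, i1, i2, h1, ⟨e1⟩⟩ | ⟨F, i1, i2, r, h1, h2, ⟨e1⟩⟩
  · exact (R.psl2_three F (Or.inr (Or.inl h1))).of_mulEquiv e1.symm
  · exact (R.psl2_three F (Or.inr (Or.inr ⟨r, h1, h2⟩))).of_mulEquiv e1.symm

theorem L3_of_alt5 {K : Type u} [Group K] (e : K ≃* alternatingGroup (Fin 5)) : L3 K := by
  have : Fact (Nat.Prime 2) := ⟨Nat.prime_two⟩
  let i2 : Fintype (GaloisField 2 2) := Fintype.ofFinite _
  have hc : Fintype.card (GaloisField 2 2) = 4 := by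
    rw [← Nat.card_eq_fintype_card, GaloisField.card 2 2 (by norm_num)]
    norm_num
  obtain ⟨e1⟩ := S0252.result hc
  exact Or.inr ⟨GaloisField 2 2, inferInstance, i2, 2, Nat.prime_two, by rw [hc]; norm_num, ⟨e.trans e1.symm⟩⟩

/-- the dichotomy for a simple group -/
def Dich (K : Type u) [Group K] : Prop := AtLeast 3 K ∧ (AtLeast 4 K ∨ L3 K)

theorem Dich.congr {K : Type u} {K' : Type v} [Group K] [Group K'] (h : Dich K) (e : K ≃* K') : Dich K' :=
  ⟨(AtLeast.congr e).1 h.1, h.2.imp (AtLeast.congr e).1 fun h => h.congr e⟩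

theorem dich_of_sep {K : Type u} [Group K] [Finite K] (h : H940.MaxCls.Sep 5 K) : Dich K :=
  ⟨(atLeast_of_sep h).le (by norm_num), Or.inl ((atLeast_of_sep h).le (by norm_num))⟩

theorem dich_of_four {K : Type u} [Group K] (h : Cls 4 K) : Dich K :=
  ⟨(atLeast_of_cls h).le (by norm_num), Or.inl (atLeast_of_cls h)⟩

theorem dich_of_three (R : Rows) {K : Type u} [Group K] (h : L3 K) : Dich K :=
  ⟨atLeast_of_cls (cls_of_L3 R h), Or.inr h⟩

/-- a known simple group -/
theorem dich (R : Rows) {G : Type} [Group G] [Finite G] (hp : ¬ (Nat.card G).Prime) (hk : IsKnownSimple' G) : Dich G := by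
  rcases hk with h | h | h | h | h | h | h | h | h | h
  · exact absurd h hp
  · obtain ⟨n, hn, ⟨e⟩⟩ := h
    rcases Nat.lt_or_ge n 6 with h6 | h6
    · have : n = 5 := by omega
      subst this
      exact dich_of_three R (L3_of_alt5 e)
    · exact dich_of_sep ((R.alt n h6).of_mulEquiv e.symm)
  · obtain ⟨F, i1, i2, n, hn, hn2, ⟨e⟩⟩ := h
    rcases Nat.lt_or_ge n 3 with h3 | h3
    · have : n = 2 := by omega
      subst this
      by_cases h4 : H940.MaxCls.Cond4 F
      · exact dich_of_four ((R.psl2_four F h4).of_mulEquiv e.symm)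
      · by_cases h5 : H940.MaxCls.Cond3 F
        · rcases h5 with h5 | h5 | ⟨r, hr, h5⟩
          · obtain ⟨e1⟩ := S0253.result h5
            exact dich_of_three R (L3_of_alt5 (e.trans e1))
          · exact dich_of_three R (Or.inl ⟨F, i1, i2, h5, ⟨e⟩⟩)
          · exact dich_of_three R (Or.inr ⟨F, i1, i2, r, hr, h5, ⟨e⟩⟩)
        · exact dich_of_sep ((R.psl2_five F (hn2 rfl) h4 h5).of_mulEquiv e.symm)
    · rcases Nat.lt_or_ge n 4 with h4 | h4
      · have : n = 3 := by omega
        subst this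
        rcases Nat.lt_or_ge (Fintype.card F) 4 with h5 | h5
        · have h6 : 1 < Fintype.card F := Fintype.one_lt_card
          have h7 : Fintype.card F = 2 ∨ Fintype.card F = 3 := by omega
          rcases h7 with h7 | h7
          · have : Fact (Nat.Prime 7) := ⟨by norm_num⟩
            obtain ⟨e1⟩ := S0255.result (F := ZMod 7) (K := F) (ZMod.card 7) h7
            exact dich_of_three R (Or.inl ⟨ZMod 7, inferInstance, inferInstance, ZMod.card 7, ⟨e.trans e1.symm⟩⟩)
          · exact dich_of_four ((R.psl3_three F h7).of_mulEquiv e.symm)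
        · exact dich_of_sep ((R.psl3_five F h5).of_mulEquiv e.symm)
      · exact dich_of_sep ((R.psl_five F n h4).of_mulEquiv e.symm)
  · obtain ⟨F, i1, i2, m, hm, hm2, ⟨e⟩⟩ := h
    exact dich_of_sep ((R.psp_five F m hm hm2).of_mulEquiv e.symm)
  · obtain ⟨F, i1, i2, n, q, hq, hn, hn2, ⟨e⟩⟩ := h
    rcases Nat.lt_or_ge n 4 with h4 | h4
    · have : n = 3 := by omega
      subst this
      have h6 : 1 < Fintype.card F := Fintype.one_lt_card
      have hq2 : 2 ≤ q := by
        by_contra hlt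
        have h7 : q ≤ 1 := by omega
        have h8 : q ^ 2 ≤ 1 := by interval_cases q <;> norm_num
        omega
      have hq3 : q ≠ 2 := fun h => hn2 ⟨rfl, h⟩
      by_cases h3 : q = 3
      · subst h3
        exact dich_of_four ((R.psu3_three F (by rw [hq]; norm_num)).of_mulEquiv e.symm)
      · by_cases h5 : ∃ m : ℕ, 1 ≤ m ∧ q = 2 ^ (2 ^ m)
        · obtain ⟨m, hm, rfl⟩ := h5
          exact dich_of_four ((R.psu3_two F m hm hq).of_mulEquiv e.symm)
        · exact dich_of_sep ((R.psu3_five F q hq (by omega) h5).of_mulEquiv e.symm)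
    · exact dich_of_sep ((R.psu_five F n q hq h4).of_mulEquiv e.symm)
  · exact dich_of_sep (R.oodd G h)
  · exact dich_of_sep (R.oplus G h)
  · exact dich_of_sep (R.ominus G h)
  · rcases h with h | h | h | h | h | h | h | h | h | h | h
    · exact dich_of_sep (R.exc G (Or.inl h))
    · exact dich_of_sep (R.exc G (Or.inr (Or.inl h)))
    · exact dich_of_sep (R.exc G (Or.inr (Or.inr (Or.inl h))))
    · exact dich_of_sep (R.exc G (Or.inr (Or.inr (Or.inr (Or.inl h)))))
    · exact dich_of_sep (R.exc G (Or.inr (Or.inr (Or.inr (Or.inr (Or.inl h))))))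
    · exact dich_of_sep (R.exc G (Or.inr (Or.inr (Or.inr (Or.inr (Or.inr (Or.inl h)))))))
    · exact dich_of_sep (R.exc G (Or.inr (Or.inr (Or.inr (Or.inr (Or.inr (Or.inr (Or.inl h))))))))
    · obtain ⟨F, i1, i2, m, hm, hF, ⟨e⟩⟩ := h
      by_cases hp : (2 * m + 1).Prime
      · exact dich_of_four ((R.sz_four F m hm hF hp).of_mulEquiv e.symm)
      · exact dich_of_sep ((R.sz_five F m hm hF hp).of_mulEquiv e.symm)
    · exact dich_of_sep (R.exc G (Or.inr (Or.inr (Or.inr (Or.inr (Or.inr (Or.inr (Or.inr (Or.inl h)))))))))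
    · exact dich_of_sep (R.exc G (Or.inr (Or.inr (Or.inr (Or.inr (Or.inr (Or.inr (Or.inr (Or.inr (Or.inl h))))))))))
    · exact dich_of_sep (R.exc G (Or.inr (Or.inr (Or.inr (Or.inr (Or.inr (Or.inr (Or.inr (Or.inr (Or.inr h))))))))))
  · exact dich_of_sep (R.spor G h)

/-- **S5907 from the dichotomy for the simple groups** -/
theorem main_of_dich (hc3 : ∀ (K : Type u) [Group K], L3 K → Cls 3 K)
    (hd0 : ∀ (K : Type) [Group K] [Finite K], IsSimpleGroup K → ¬ Group.IsSolvable K → Dich K)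
    (row2 : ∀ (K : Type) [Group K] [Finite K], IsSimpleGroup K → ¬ Group.IsSolvable K → Supp.{u} 3 K)
    {G : Type u} [Group G] [Finite G] (hG : ¬ Group.IsSolvable G) : Cls 3 G ↔ L3 (G ⧸ frattini G) := by
  have hd : ∀ (K : Type u) [Group K] [Finite K], IsSimpleGroup K → ¬ Group.IsSolvable K → Dich K := by
    intro K _ _ hs hns
    let e : Shrink.{0} K ≃* K := Shrink.mulEquiv
    have : Finite (Shrink.{0} K) := Finite.of_equiv K e.symm.toEquiv
    have : IsSimpleGroup (Shrink.{0} K) := by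
      have : Nontrivial (Shrink.{0} K) := e.toEquiv.nontrivial
      exact e.isSimpleGroup
    exact (hd0 (Shrink.{0} K) this fun h => hns
      (Group.isSolvable_of_isSolvable_injective (f := e.symm.toMonoidHom) e.symm.injective)).congr e
  have h2 : ∀ (K : Type u) [Group K] [Finite K], IsSimpleGroup K → ¬ Group.IsSolvable K → Supp.{u} 3 K := by
    intro K _ _ hs hns
    let e : Shrink.{0} K ≃* K := Shrink.mulEquiv
    have : Finite (Shrink.{0} K) := Finite.of_equiv K e.symm.toEquiv
    have h1 : IsSimpleGroup (Shrink.{0} K) := by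
      have : Nontrivial (Shrink.{0} K) := e.toEquiv.nontrivial
      exact e.isSimpleGroup
    exact (row2 (Shrink.{0} K) h1 fun h => hns
      (Group.isSolvable_of_isSolvable_injective (f := e.symm.toMonoidHom) e.symm.injective)).congr e
  obtain ⟨h3, h4⟩ := main_red (fun K _ _ hs hns => (hd K hs hns).1) h2 (Nat.card G) G rfl hG
  constructor
  · intro h
    have h5 : ¬ AtLeast 4 G := (cls_iff.1 h).2
    have h6 := h4 h5
    have h7 : ¬ Group.IsSolvable (G ⧸ frattini G) := by
      intro hs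
      apply hG
      have : Group.IsNilpotent (frattini G) := frattini_nilpotent
      exact Group.isSolvable_of_ker_le_range (frattini G).subtype (QuotientGroup.mk' (frattini G)) (by
        rw [QuotientGroup.ker_mk', Subgroup.range_subtype])
    rcases (hd _ h6 h7).2 with h8 | h8
    · exact absurd (atLeast_frattini.2 h8) h5
    · exact h8
  · intro h
    exact cls_frattini.2 (hc3 _ h)

/-- **S5907 from its rows** -/
theorem main (R : Rows) (hk : ∀ (G : Type) [Group G] [Finite G] [IsSimpleGroup G], IsKnownSimple' G)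
    (row2 : ∀ (K : Type) [Group K] [Finite K], IsSimpleGroup K → ¬ Group.IsSolvable K → Supp.{u} 3 K)
    {G : Type u} [Group G] [Finite G] (hG : ¬ Group.IsSolvable G) : Cls 3 G ↔ L3 (G ⧸ frattini G) := by
  refine main_of_dich (fun K _ h => cls_of_L3 R h) (fun K _ _ hs hns => dich R ?_ (hk K)) row2 hG
  intro hp
  apply hns
  have := Fact.mk hp
  have : IsCyclic K := isCyclic_of_prime_card rfl
  infer_instance

end Cfsg.Agent.H339.MaxAsm
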