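import Cfsg.Agent.H339.MaxTwo

/-!
# An invariant maximal subgroup and arithmetic (helper339, S5907)

* `supp_of_coatom` : `K` has an invariant maximal subgroup `A` and no `e` is complementary to `|K : A|`;
* `relIndex_centralizer`, `isCoatom_centralizer_of_rank_three` : the centralizer of an element of a class on which `G` has rank three.
-/

set_option autoImplicit false
set_option linter.unusedSectionVars false

namespace Cfsg.Agent.H339.MaxCl

open Subgroup

universe u v

theorem supp_of_coatom {K : Type v} [Group K] [Finite K] (hsimp : IsSimpleGroup K) (hns : ¬ Group.IsSolvable K)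
    {A : Subgroup K} (hA : IsCoatom A) (hinv : AutInv A) (hAb : A ≠ ⊥)
    (hnum : ∀ e : ℕ, e ≠ 1 → e ∣ Nat.card K → Nat.card K ∣ e.factorial →
      ∃ r : ℕ, r.Prime ∧ r ∣ Nat.card K ∧ A.index % r ≠ 1 ∧ e % r ≠ 1) : Supp.{u} 3 K := by
  rintro X _ _ S _ ⟨f⟩ _ _ _ _
  have h1 : IsSimpleGroup ↥S := f.isSimpleGroup
  have h2 : ¬ Group.IsSolvable ↥S := fun h =>
    hns (Group.isSolvable_of_isSolvable_injective (f := f.symm.toMonoidHom) f.symm.injective)
  have hcard : Nat.card S = Nat.card K := Nat.card_congr f.toEquiv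
  by_contra hcon
  obtain ⟨M, hM, hcov, hR⟩ := exists_indices h1 h2 (n := 2) (by norm_num) hcon
  have hMS : ∀ i, M i ⊔ S = ⊤ := fun i => sup_eq_top_of_coatom (hM i).1 (hM i).2
  have hidx' : ∀ i, (M i).index = ((M i).subgroupOf S).index := fun i => index_eq (hMS i)
  have hne1 : ∀ i, (M i).index ≠ 1 := fun i e => (hM i).1.1 (Subgroup.index_eq_one.1 e)
  have hdvd : ∀ i, (M i).index ∣ Nat.card K := fun i => by
    rw [hidx' i, ← hcard]; exact Subgroup.index_dvd_card _
  have hfac : ∀ i, Nat.card K ∣ ((M i).index).factorial := fun i => by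
    rw [hidx' i, ← hcard]
    refine Cfsg.Agent.H940.MaxCls.card_dvd_factorial ?_
    rw [Ne, subgroupOf_eq_top]
    exact (hM i).2
  -- the invariant subgroup in `S`
  set A' : Subgroup ↥S := A.map f.symm.toMonoidHom with hA'
  have hinv' : AutInv A' := hinv.map f.symm
  have hco' : IsCoatom A' := (OrderIso.isCoatom_iff f.symm.mapSubgroup A).2 hA
  have hA'b : A' ≠ ⊥ := map_equiv_ne_bot f.symm hAb
  have hN := normalizer_sup_eq_top hinv'
  have hNne : normalizer ((A'.map S.subtype : Subgroup X) : Set X) ≠ ⊤ := by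
    intro h
    have h3 : A'.Normal := by
      refine ⟨fun a ha g => ?_⟩
      have h3 : (g : X) ∈ normalizer (((A'.map S.subtype : Subgroup X)) : Set X) := by rw [h]; exact mem_top _
      have h4 := (mem_normalizer_iff.1 h3 (a : X)).1 ⟨a, ha, rfl⟩
      obtain ⟨b, hb, hb'⟩ := h4
      have h5 : b = g * a * g⁻¹ := Subtype.ext hb'
      rwa [← h5]
    rcases h3.eq_bot_or_eq_top with h4 | h4
    · exact hA'b h4
    · exact hco'.1 h4
  obtain ⟨L, hL, hAL⟩ := exists_coatom hNne
  have hSL : ¬ S ≤ L := fun h => hL.1 (by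
    rw [eq_top_iff, ← hN]
    exact sup_le hAL h)
  obtain ⟨i, hi⟩ := hcov L hL hSL
  have hLidx : L.index = A.index := by
    rw [index_eq (sup_eq_top_of_coatom hL hSL)]
    have h3 : A' ≤ L.subgroupOf S := fun a ha => hAL (Subgroup.le_normalizer ⟨a, ha, rfl⟩)
    have h4 : A' = L.subgroupOf S := by
      by_contra hne
      have h5 := hco'.2 _ (lt_of_le_of_ne h3 hne)
      rw [subgroupOf_eq_top] at h5
      exact hSL h5
    rw [← h4, hA']
    exact Subgroup.index_map_of_bijective (f := f.symm.toMonoidHom) f.symm.bijective _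
  have hMi : (M i).index = A.index := by
    rw [← hLidx]
    have hc := hi.card_eq
    have h9 : Nat.card (M i) * (M i).index = Nat.card X := Subgroup.card_mul_index _
    have h10 : Nat.card L * L.index = Nat.card X := Subgroup.card_mul_index _
    rw [← h9, hc] at h10
    exact (Nat.eq_of_mul_eq_mul_left Nat.card_pos h10).symm
  obtain ⟨j, hj⟩ : ∃ j : Fin 2, ∀ j' : Fin 2, j' ≠ i → j' = j := by
    fin_cases i
    · exact ⟨1, by decide⟩
    · exact ⟨0, by decide⟩
  obtain ⟨r, hr, hrK, hr1, hr2⟩ := hnum (M j).index (hne1 j) (hdvd j) (hfac j)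
  have := Fact.mk hr
  obtain ⟨k, R, hRk⟩ := hR r (by rw [hcard]; exact hrK)
  have h4 := index_modEq (hMS k) R hRk
  have h5 : (M k).index % r = 1 := by
    rw [h4]
    exact Nat.mod_eq_of_lt hr.one_lt
  by_cases hki : k = i
  · rw [hki, hMi] at h5
    exact hr1 h5
  · rw [hj k hki] at h5
    exact hr2 h5

section rank3

variable {G : Type*} [Group G]

/-- the `M`-orbit of `d` under conjugation -/
theorem relIndex_centralizer (d : G) (M : Subgroup G) :
    (centralizer ({d} : Set G)).relIndex M = {x | ∃ m ∈ M, m * d * m⁻¹ = x}.ncard := by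
  have key : ∀ a b : M, (QuotientGroup.leftRel ((centralizer ({d} : Set G)).subgroupOf M)) a b ↔
      (a : G) * d * (a : G)⁻¹ = (b : G) * d * (b : G)⁻¹ := by
    intro a b
    rw [QuotientGroup.leftRel_apply, mem_subgroupOf, mem_centralizer_singleton_iff]
    constructor
    · intro h
      have h1 : (a : G)⁻¹ * (b : G) * d = d * ((a : G)⁻¹ * (b : G)) := h
      have h2 : (b : G) * d * (b : G)⁻¹ = (a : G) * ((a : G)⁻¹ * (b : G) * d) * (b : G)⁻¹ := by group
      rw [h2, h1]
      group
    · intro h
      show (a : G)⁻¹ * (b : G) * d = d * ((a : G)⁻¹ * (b : G))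
      have h2 : (a : G)⁻¹ * (b : G) * d = (a : G)⁻¹ * ((b : G) * d * (b : G)⁻¹) * (b : G) := by group
      rw [h2, ← h]
      group
  let F : M ⧸ (centralizer ({d} : Set G)).subgroupOf M → G :=
    Quotient.lift (fun m : M => (m : G) * d * (m : G)⁻¹) fun a b h => (key a b).1 h
  have hF : Function.Injective F := by
    intro x y hxy
    induction x using QuotientGroup.induction_on with
    | H a =>
      induction y using QuotientGroup.induction_on with
      | H b => exact Quotient.sound ((key a b).2 hxy)
  have hr : Set.range F = {x | ∃ m ∈ M, m * d * m⁻¹ = x} := by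
    ext x
    constructor
    · rintro ⟨y, rfl⟩
      induction y using QuotientGroup.induction_on with
      | H a => exact ⟨a, a.2, rfl⟩
    · rintro ⟨m, hm, rfl⟩
      exact ⟨QuotientGroup.mk (⟨m, hm⟩ : M), rfl⟩
  rw [← hr, ← Nat.card_coe_set_eq, Nat.card_range_of_injective hF]
  rfl

theorem autInv_centralizer {d : G} (h : ∀ α : G ≃* G, ∃ g : G, g * d * g⁻¹ = α d) : AutInv (centralizer ({d} : Set G)) := by
  intro α
  obtain ⟨g, hg⟩ := h α
  refine ⟨g, ?_⟩
  have key : ∀ β : G ≃* G, (centralizer ({d} : Set G)).map β.toMonoidHom = centralizer ({β d} : Set G) := by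
    intro β
    ext x
    constructor
    · rintro ⟨y, hy, rfl⟩
      rw [mem_centralizer_singleton_iff]
      have h1 : y * d = d * y := mem_centralizer_singleton_iff.1 hy
      show β y * β d = β d * β y
      rw [← map_mul, h1, map_mul]
    · intro hx
      rw [mem_centralizer_singleton_iff] at hx
      refine ⟨β.symm x, ?_, β.apply_symm_apply x⟩
      show β.symm x ∈ centralizer ({d} : Set G)
      rw [mem_centralizer_singleton_iff]
      apply β.injective
      rw [map_mul, map_mul, β.apply_symm_apply]
      exact hx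
  have h1 := key (MulAut.conj g)
  have h2 := key α
  have h3 : (MulAut.conj g) d = α d := hg
  rw [h3] at h1
  exact h1.trans h2.symm

/-- the centralizer is maximal if the class `T` of `d` has rank three, with numbers excluding blocks -/
theorem isCoatom_centralizer {T : Set G} {d : G} (hT : ∀ x, x ∈ T ↔ ∃ g : G, g * d * g⁻¹ = x) (hTf : T.Finite)
    (hc : ∀ x ∈ T, ∀ y ∈ T, x ≠ d → y ≠ d → (Commute x d ↔ Commute y d) → ∃ k : G, k * d * k⁻¹ = d ∧ k * x * k⁻¹ = y)
    {n a : ℕ} (hn : T.ncard = n) (h1n : n ≠ 1) (ha : {x | x ∈ T ∧ x ≠ d ∧ Commute x d}.ncard = a)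
    (h1 : ¬ a + 1 ∣ n) (h2 : ¬ n - a ∣ n) : IsCoatom (centralizer ({d} : Set G)) := by
  have hdT : d ∈ T := (hT d).2 ⟨1, by group⟩
  set C := centralizer ({d} : Set G) with hC
  have horb : ∀ M : Subgroup G, C.relIndex M = {x | ∃ m ∈ M, m * d * m⁻¹ = x}.ncard := relIndex_centralizer d
  have hidx : C.index = n := by
    have h3 := horb ⊤
    rw [Subgroup.relIndex_top_right] at h3
    rw [h3, ← hn]
    congr 1
    ext x
    rw [hT]
    constructor
    · rintro ⟨m, -, h⟩
      exact ⟨m, h⟩
    · rintro ⟨m, h⟩
      exact ⟨m, mem_top _, h⟩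
  refine ⟨fun h => ?_, fun M hM => ?_⟩
  · rw [h, Subgroup.index_top] at hidx
    exact h1n hidx.symm
  · obtain ⟨m, hmM, hmC⟩ := SetLike.exists_of_lt hM
    set O : Set G := {x | ∃ m ∈ M, m * d * m⁻¹ = x} with hO
    have hOT : O ⊆ T := by
      rintro x ⟨m, -, h⟩
      exact (hT x).2 ⟨m, h⟩
    have hdO : d ∈ O := ⟨1, one_mem _, by group⟩
    have hmul : O.ncard * M.index = n := by
      rw [← horb M, ← hidx]
      exact Subgroup.relIndex_mul_index hM.le
    -- closure under the two relations
    have hcl : ∀ x ∈ O, x ≠ d → ∀ y ∈ T, y ≠ d → (Commute x d ↔ Commute y d) → y ∈ O := by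
      rintro x ⟨k, hk, rfl⟩ hxd y hy hyd hiff
      obtain ⟨l, hl1, hl2⟩ := hc _ ((hT _).2 ⟨k, rfl⟩) y hy hxd hyd hiff
      have hlM : l ∈ M := by
        apply hM.le
        rw [hC, mem_centralizer_singleton_iff]
        calc l * d = l * d * l⁻¹ * l := by group
          _ = d * l := by rw [hl1]
      refine ⟨l * k, mul_mem hlM hk, ?_⟩
      rw [← hl2]
      group
    have hb : m * d * m⁻¹ ≠ d := by
      intro h
      apply hmC
      rw [hC, mem_centralizer_singleton_iff]
      calc m * d = m * d * m⁻¹ * m := by group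
        _ = d * m := by rw [h]
    have hbO : m * d * m⁻¹ ∈ O := ⟨m, hmM, rfl⟩
    set N : Set G := {x | x ∈ T ∧ x ≠ d ∧ Commute x d} with hNdef
    set Q : Set G := {x | x ∈ T ∧ ¬ Commute x d} with hQdef
    have hNf : N.Finite := hTf.subset fun x hx => hx.1
    have hQf : Q.Finite := hTf.subset fun x hx => hx.1
    have hTun : T = insert d (N ∪ Q) := by
      ext x
      constructor
      · intro hx
        by_cases hxd : x = d
        · exact Or.inl hxd
        · by_cases hxc : Commute x d
          · exact Or.inr (Or.inl ⟨hx, hxd, hxc⟩)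
          · exact Or.inr (Or.inr ⟨hx, hxc⟩)
      · rintro (rfl | hx | hx)
        · exact hdT
        · exact hx.1
        · exact hx.1
    have hdN : d ∉ N := fun h => h.2.1 rfl
    have hdQ : d ∉ Q := fun h => h.2 (Commute.refl d)
    have hNQ : Disjoint N Q := by
      rw [Set.disjoint_left]
      exact fun x h1 h2 => h2.2 h1.2.2
    have hcard : n = 1 + a + Q.ncard := by
      rw [← hn, hTun, Set.ncard_insert_of_notMem (by rintro (h | h); exacts [hdN h, hdQ h]) (hNf.union hQf),
        Set.ncard_union_eq hNQ hNf hQf, ha]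
      ring
    by_cases hex1 : ∃ x ∈ O, x ≠ d ∧ Commute x d
    · have hNO : N ⊆ O := by
        obtain ⟨x, hx, hxd, hxc⟩ := hex1
        intro y hy
        exact hcl x hx hxd y hy.1 hy.2.1 ⟨fun _ => hy.2.2, fun _ => hxc⟩
      by_cases hex2 : ∃ x ∈ O, ¬ Commute x d
      · have hQO : Q ⊆ O := by
          obtain ⟨x, hx, hxc⟩ := hex2
          have hxd : x ≠ d := fun h => hxc (h ▸ Commute.refl x)
          intro y hy
          have hyd : y ≠ d := fun h => hy.2 (h ▸ Commute.refl y)
          exact hcl x hx hxd y hy.1 hyd ⟨fun h => absurd h hxc, fun h => absurd h hy.2⟩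
        have hOT' : O = T := by
          apply hOT.antisymm
          rw [hTun]
          rintro x (rfl | hx | hx)
          · exact hdO
          · exact hNO hx
          · exact hQO hx
        rw [hOT', hn] at hmul
        have hn0 : n ≠ 0 := by
          rw [hcard]; omega
        have : M.index = 1 := by
          have h3 : n * M.index = n * 1 := by rw [hmul, mul_one]
          exact Nat.eq_of_mul_eq_mul_left (Nat.pos_of_ne_zero hn0) h3
        exact Subgroup.index_eq_one.1 this
      · exfalso
        push Not at hex2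
        have hOe : O = insert d N := by
          ext x
          constructor
          · intro hx
            by_cases hxd : x = d
            · exact Or.inl hxd
            · exact Or.inr ⟨hOT hx, hxd, hex2 x hx⟩
          · rintro (rfl | hx)
            · exact hdO
            · exact hNO hx
        rw [hOe, Set.ncard_insert_of_notMem hdN hNf, ha] at hmul
        exact h1 ⟨_, hmul.symm⟩
    · exfalso
      push Not at hex1
      have hbc : ¬ Commute (m * d * m⁻¹) d := hex1 _ hbO hb
      have hQO : Q ⊆ O := by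
        intro y hy
        have hyd : y ≠ d := fun h => hy.2 (h ▸ Commute.refl y)
        exact hcl _ hbO hb y hy.1 hyd ⟨fun h => absurd h hbc, fun h => absurd h hy.2⟩
      have hOe : O = insert d Q := by
        ext x
        constructor
        · intro hx
          by_cases hxd : x = d
          · exact Or.inl hxd
          · exact Or.inr ⟨hOT hx, hex1 x hx hxd⟩
        · rintro (rfl | hx)
          · exact hdO
          · exact hQO hx
      rw [hOe, Set.ncard_insert_of_notMem hdQ hQf] at hmul
      apply h2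
      have : n - a = Q.ncard + 1 := by omega
      rw [this]
      exact ⟨_, hmul.symm⟩

end rank3

end Cfsg.Agent.H339.MaxCl
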