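import Cfsg.Agent.H339.MaxCo
import Cfsg.Agent.R08.AutT
import Cfsg.Agent.R01.Component

/-!
# The row `Fi22` of S5907 (helper339): the centralizer of a transposition is maximal of index 3510
-/

set_option autoImplicit false

namespace Cfsg.Agent.H339.RowFi22

open Subgroup Cfsg Cfsg.Agent.H339.MaxCl Cfsg.Agent.R01
open Cfsg.Agent.Fischer.Fi22PtsRep (gen)

universe u

theorem num (e : ℕ) (h1 : e ≠ 1) (h : e ∣ 64561751654400) :
    ∃ r : ℕ, r.Prime ∧ r ∣ 64561751654400 ∧ 3510 % r ≠ 1 ∧ e % r ≠ 1 := by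
  by_contra hcon
  push Not at hcon
  have e2 := hcon 2 (by norm_num) (by norm_num) (by norm_num)
  have e3 := hcon 3 (by norm_num) (by norm_num) (by norm_num)
  have e5 := hcon 5 (by norm_num) (by norm_num) (by norm_num)
  have e7 := hcon 7 (by norm_num) (by norm_num) (by norm_num)
  have e13 := hcon 13 (by norm_num) (by norm_num) (by norm_num)
  have cop : ∀ p : ℕ, p.Prime → e % p = 1 → Nat.Coprime e p := by
    intro p hp h
    rw [Nat.coprime_comm, hp.coprime_iff_not_dvd]
    intro hd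
    rw [Nat.mod_eq_zero_of_dvd hd] at h
    exact one_ne_zero h.symm
  have c2 := (cop 2 (by norm_num) e2).pow_right 17
  have c3 := (cop 3 (by norm_num) e3).pow_right 9
  have c5 := (cop 5 (by norm_num) e5).pow_right 2
  have c7 := cop 7 (by norm_num) e7
  have c13 := cop 13 (by norm_num) e13
  have hc : Nat.Coprime e (2 ^ 17 * 3 ^ 9 * 5 ^ 2 * 7 * 13) :=
    (((c2.mul_right c3).mul_right c5).mul_right c7).mul_right c13
  have h11 : e ∣ 11 := by
    refine hc.dvd_of_dvd_mul_left (n := 11) ?_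
    have : (2 ^ 17 * 3 ^ 9 * 5 ^ 2 * 7 * 13) * 11 = 64561751654400 := by norm_num
    rw [this]
    exact h
  rcases (Nat.dvd_prime (by norm_num : Nat.Prime 11)).1 h11 with h | h
  · exact h1 h
  · rw [h] at e3
    norm_num at e3

theorem mem_T_iff (x : Spor.Fi22) : x ∈ Fi22Facts.T ↔ ∃ g : Spor.Fi22, g * gen .a * g⁻¹ = x := by
  show IsConj (gen .a) x ↔ _
  rw [isConj_iff]

theorem co : IsCoatom (centralizer ({gen .a} : Set Spor.Fi22)) := by
  have := Fi22Facts.finite
  have ha : (Component.Nb Fi22Facts.T (gen .a)).ncard = 693 :=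
    Component.ncard_Nb Fischer.Unit22.hF (Component.labels_of_loc Fi22Facts.loc) (Fi22Facts.gen_mem .a)
  refine isCoatom_centralizer mem_T_iff (Set.toFinite _) ?_ Fi22Facts.ncard_T (by norm_num) ha (by norm_num) (by norm_num)
  intro x hx y hy hxd hyd hiff
  by_cases hc : Commute x (gen .a)
  · obtain ⟨k, h1, h2⟩ := Fi22Facts.trans_commuting _ (Fi22Facts.gen_mem .a) x hx _ (Fi22Facts.gen_mem .a) y hy hxd.symm
      hyd.symm hc.symm (hiff.1 hc).symm
    exact ⟨k, h1, h2⟩
  · obtain ⟨k, h1, h2⟩ := Fi22Facts.trans_noncommuting _ (Fi22Facts.gen_mem .a) x hx _ (Fi22Facts.gen_mem .a) y hy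
      (fun h => hc h.symm) (fun h => hc (hiff.2 h.symm))
    exact ⟨k, h1, h2⟩

theorem idx : (centralizer ({gen .a} : Set Spor.Fi22)).index = 3510 := by
  have h := relIndex_centralizer (gen .a : Spor.Fi22) ⊤
  rw [Subgroup.relIndex_top_right] at h
  rw [h, ← Fi22Facts.ncard_T]
  congr 1
  ext x
  rw [mem_T_iff]
  constructor
  · rintro ⟨m, -, h⟩
    exact ⟨m, h⟩
  · rintro ⟨m, h⟩
    exact ⟨m, mem_top _, h⟩

theorem not_solv : ¬ Group.IsSolvable Spor.Fi22 := by
  have := Fi22Facts.finite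
  have hs := Fi22Facts.isSimple
  intro hc
  have hcomm := IsSimpleGroup.comm_iff_isSolvable.mpr hc
  apply co.1
  rw [eq_top_iff]
  intro x _
  rw [mem_centralizer_singleton_iff]
  exact hcomm _ _

theorem supp_fi22 : Supp.{u} 3 Spor.Fi22 := by
  have := Fi22Facts.finite
  have hs := Fi22Facts.isSimple
  refine supp_of_coatom hs not_solv co (autInv_centralizer ?_) ?_ ?_
  · intro α
    exact (mem_T_iff _).1 (R08.AutT.aut_mem α (Fi22Facts.gen_mem .a))
  · intro h
    have h1 := idx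
    rw [h, Subgroup.index_bot, Fi22Facts.card] at h1
    norm_num at h1
  · intro e h1 h2 _
    rw [Fi22Facts.card] at h2 ⊢
    rw [idx]
    exact num e h1 h2

end Cfsg.Agent.H339.RowFi22
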